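import Cfsg.Agent.H115.R2.TopS
import Cfsg.Agent.H607.R2.WL

/-!
# S3509, R2 (e): the top of the stable Levi sets of `E₆`, the form of helper607 (helper115)
-/

set_option autoImplicit false
set_option linter.unusedSectionVars false

namespace Cfsg.Agent.H115.R2

open CoxeterSystem Cfsg Cfsg.Lie Cfsg.Lie.ChevalleyDatum
open Cfsg.Agent.ChevalleyStructure Cfsg.Agent.ChevalleyStructure.Elts Cfsg.Agent.ChevalleyStructure.CoxeterGeom
  Cfsg.Agent.ChevalleyStructure.CoxeterGeomTypes Cfsg.Agent.ChevalleyStructure.NPerm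
open Cfsg.Agent.Tits.Roots Cfsg.Agent.Tits.Core Cfsg.Agent.Nodes Cfsg.Agent.Nodes.Reps Cfsg.Agent.Nodes.BNOf
  Cfsg.Agent.Nodes.Coroot Cfsg.Agent.Nodes.RGDChev
open Cfsg.Agent.H378.Eng Cfsg.Agent.KFacts.RgdField Cfsg.Agent.KFacts.RgdChevCoord Cfsg.Agent.BpExc.TorCent
  Cfsg.Agent.BpExc.TorChev Cfsg.Agent.H469.Exc
open Cfsg.Agent.H607.R2 (sd sdc)

theorem sdc_eq {s : ℕ} (hs : s < 3) : sdc s = cv s := by
  interval_cases s <;> rfl

variable {M : CoxeterMatrix (Fin 6)} (hp : IsType chevE6 6 M) (r : ℕ) [Fact r.Prime]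

/-- **R2 (e)**, with the long root and the pairing. -/
theorem exists_top' {s : ℕ} (hs : s < 3) (v : M.Group) {θ : (Fin 6 → ℤ) ≃+ (Fin 6 → ℤ)}
    (hθr : ∀ a, IsRoot M.toCoxeterSystem hp.isCartan (θ a) ↔ IsRoot M.toCoxeterSystem hp.isCartan a)
    {t : ↥(chevE6.group (KK r))}
    (hSx : Sx M.toCoxeterSystem hp.isCartan (ch hp) t =
      {x | IsRoot M.toCoxeterSystem hp.isCartan x ∧ sd s (rep M.toCoxeterSystem hp.isCartan v x) = 0})
    (stab : ∀ a, θ a ∈ Sx M.toCoxeterSystem hp.isCartan (ch hp) t ↔ a ∈ Sx M.toCoxeterSystem hp.isCartan (ch hp) t)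
    (pos : ∀ a ∈ Sx M.toCoxeterSystem hp.isCartan (ch hp) t, 0 ≤ a → 0 ≤ θ a) :
    ∃ β, H169.RG.Top M.toCoxeterSystem hp.isCartan (ch hp) θ t β ∧
      (∃ w, β = rep M.toCoxeterSystem hp.isCartan w (vec chevE6 6 (chevE6.nroots - 1))) ∧
      H398.RG.Lr M.toCoxeterSystem hp.isCartan β ∧
      8 ≤ {a | a ∈ Sx M.toCoxeterSystem hp.isCartan (ch hp) t ∧ cpr M.toCoxeterSystem hp.isCartan a β = 1}.ncard ∧
      8 ≤ {a | a ∈ Sx M.toCoxeterSystem hp.isCartan (ch hp) t ∧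
        IsRoot M.toCoxeterSystem hp.isCartan (β - a)}.ncard := by
  have hW := finite_W hp M.toCoxeterSystem
  refine exists_topC hp M.toCoxeterSystem hs v ?_ hθr stab pos
  rw [hSx]
  unfold sd
  rw [sdc_eq hs]

/-- **R2 (e).** -/
theorem exists_top {s : ℕ} (hs : s < 3) (v : M.Group) {θ : (Fin 6 → ℤ) ≃+ (Fin 6 → ℤ)}
    (hθr : ∀ a, IsRoot M.toCoxeterSystem hp.isCartan (θ a) ↔ IsRoot M.toCoxeterSystem hp.isCartan a)
    {t : ↥(chevE6.group (KK r))}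
    (hSx : Sx M.toCoxeterSystem hp.isCartan (ch hp) t =
      {x | IsRoot M.toCoxeterSystem hp.isCartan x ∧ sd s (rep M.toCoxeterSystem hp.isCartan v x) = 0})
    (stab : ∀ a, θ a ∈ Sx M.toCoxeterSystem hp.isCartan (ch hp) t ↔ a ∈ Sx M.toCoxeterSystem hp.isCartan (ch hp) t)
    (pos : ∀ a ∈ Sx M.toCoxeterSystem hp.isCartan (ch hp) t, 0 ≤ a → 0 ≤ θ a) :
    ∃ β, H169.RG.Top M.toCoxeterSystem hp.isCartan (ch hp) θ t β ∧
      (∃ w, β = rep M.toCoxeterSystem hp.isCartan w (vec chevE6 6 (chevE6.nroots - 1))) ∧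
      8 ≤ {a | a ∈ Sx M.toCoxeterSystem hp.isCartan (ch hp) t ∧
        IsRoot M.toCoxeterSystem hp.isCartan (β - a)}.ncard := by
  obtain ⟨β, h1, h2, -, -, h3⟩ := exists_top' hp r hs v hθr hSx stab pos
  exact ⟨β, h1, h2, h3⟩

end Cfsg.Agent.H115.R2
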