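import Cfsg.Agent.H378.WL.E6
import Cfsg.Agent.H169.RG.Pair
import Cfsg.Agent.H398.RG.OrbF
import Cfsg.Agent.H899.RG.Top
import Cfsg.Agent.Nodes.SimplyLaced
import Cfsg.Agent.H115.R2.Lev

/-!
# S3509, R2 (e): the top of the Levi sets of type `D₅`, `A₅`, `D₄` in `E₆` (helper115)

`S = {x root | c · (v x) = 0}`, `c` : the coefficient of node 6 (`D₅`), of node 2 (`A₅`), the sum of the coefficients of
the nodes 1, 6 (`D₄`), Bourbaki order; `v ∈ W`; `θ` an additive automorphism preserving the roots, `S` and its positive part.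

* `isComp_of_psiSet` : the set of `PsiSet` is irreducible in the sense of helper899;
* `card_nb` : every `b ∈ S` has at least 8 neighbours;
* `exists_top_e6` : `S` has a top `β` fixed by `θ`, with at least 8 neighbours in `S`;
* `exists_topC` : the same for `Sx t = S` with `H169.RG.Top`.
-/

set_option autoImplicit false
set_option linter.unusedSectionVars false

namespace Cfsg.Agent.H115.R2

open CoxeterSystem Cfsg Cfsg.Lie Cfsg.Lie.ChevalleyDatum
open Cfsg.Agent.ChevalleyStructure Cfsg.Agent.ChevalleyStructure.Elts Cfsg.Agent.ChevalleyStructure.CoxeterGeom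
  Cfsg.Agent.ChevalleyStructure.CoxeterGeomTypes Cfsg.Agent.ChevalleyStructure.NPerm
open Cfsg.Agent.Tits.Roots Cfsg.Agent.Tits.Core Cfsg.Agent.Nodes Cfsg.Agent.Nodes.Reps Cfsg.Agent.Nodes.BNOf
  Cfsg.Agent.Nodes.Coroot Cfsg.Agent.Nodes.RGDChev
open Cfsg.Agent.H378.Eng Cfsg.Agent.H378.WL Cfsg.Agent.H165.WL Cfsg.Agent.BpExc.TorCent

/-! ### irreducibility -/

theorem isComp_of_psiSet {D : ChevalleyDatum} {l : ℕ} {M : CoxeterMatrix (Fin l)} {hp : IsType D l M} {W : Type*}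
    [Group W] {cs : CoxeterSystem M W} {θ : (Fin l → ℤ) → (Fin l → ℤ)} {S : Set (Fin l → ℤ)} (h : PsiSet hp cs θ S) :
    H899.RG.IsComp cs hp.isCartan S S where
  sub a ha := ha
  ne := by
    obtain ⟨a, ha, -⟩ := h.two
    exact ⟨a, ha⟩
  neg := h.neg
  cl _ _ _ hb _ := hb
  min B hB hne _ hcl a ha := by
    rw [h.irr B hB hne fun a ha b hb hab => hcl a ha b hb hab]
    exact ha

/-! ### the number of neighbours -/

/-- the neighbours of the root `r` -/
def nbL (T : Dat) (C : Cd) (r : ℕ) : List Vc :=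
  (((sel T C).filter fun s => T.isPos (vadd (T.gam r) (T.gam s))).map fun s => vsm (-1) (T.gam s)) ++
    ((sel T C).filter fun s => T.isPos (vadd (T.gam r) (vsm (-1) (T.gam s))) ||
      T.isPos (vadd (T.gam s) (vsm (-1) (T.gam r)))).map fun s => T.gam s

/-- pairwise different -/
def ndB : List Vc → Bool
  | [] => true
  | x :: L => (L.all fun y => !(veq x y)) && ndB L

theorem nodup_of_ndB {l : ℕ} : ∀ L : List Vc, ndB L = true → (∀ x ∈ L, x.length ≤ l) → (L.map (toF l)).Nodup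
  | [], _, _ => List.nodup_nil
  | x :: L, h, hl => by
    rw [ndB, Bool.and_eq_true, List.all_eq_true] at h
    rw [List.map_cons, List.nodup_cons]
    refine ⟨fun hm => ?_, nodup_of_ndB L h.2 fun y hy => hl y (List.mem_cons_of_mem _ hy)⟩
    obtain ⟨y, hy, e⟩ := List.mem_map.1 hm
    have h1 := h.1 y hy
    rw [veq_of_toF (hl x List.mem_cons_self) (hl y (List.mem_cons_of_mem _ hy)) e.symm] at h1
    exact absurd h1 (by simp)

theorem length_le_ncard {l : ℕ} {L : List Vc} (h : ndB L = true) (hl : ∀ x ∈ L, x.length ≤ l) {Z : Set (Fin l → ℤ)}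
    (hZ : Z.Finite) (hm : ∀ x ∈ L, toF l x ∈ Z) : L.length ≤ Z.ncard := by
  classical
  have h1 := nodup_of_ndB L h hl
  calc L.length = (L.map (toF l)).toFinset.card := by rw [List.toFinset_card_of_nodup h1, List.length_map]
    _ = (((L.map (toF l)).toFinset : Finset (Fin l → ℤ)) : Set (Fin l → ℤ)).ncard := (Set.ncard_coe_finset _).symm
    _ ≤ Z.ncard := by
      refine Set.ncard_le_ncard (fun x hx => ?_) hZ
      rw [Finset.mem_coe, List.mem_toFinset] at hx
      obtain ⟨y, hy, rfl⟩ := List.mem_map.1 hx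
      exact hm y hy

/-- the check -/
def nchk (T : Dat) (C : Cd) (n : ℕ) : Bool :=
  (sel T C).all fun r => (nbL T C r).length.ble n == false && ndB (nbL T C r) &&
    (nbL T C r).all fun x => x.length.ble T.l

section Gen

variable {l : ℕ} {M : CoxeterMatrix (Fin l)} {W : Type*} [Group W] [Finite W] (cs : CoxeterSystem M W)
  {A : Fin l → Fin l → ℤ} (h : IsCartan M A)

variable {T : Dat} (hT : T.l = l) (hA : RowOK A T) (hR : T.chkR = true)

theorem isPos_iff {v : Vc} : T.isPos v = true ↔ ∃ a ∈ T.rts, veq v a.1 = true := by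
  unfold Dat.isPos
  rw [List.any_eq_true]

include hT hA hR

theorem isRoot_of_isPos {v : Vc} (hv : T.isPos v = true) : IsRoot cs h (toF l v) := by
  obtain ⟨a, ha, h1⟩ := isPos_iff.1 hv
  obtain ⟨r, hr, e, -⟩ := exists_lt_of_mem ha
  rw [toF_veq h1, ← e]
  exact root_gam cs h hT hA hR r hr

/-- **The number of neighbours.** -/
theorem card_nb {C : Cd} (hC : ∀ c ∈ C, c.1.length ≤ l) {n : ℕ} (hk : nchk T C n = true) {b : Fin l → ℤ}
    (hb : IsRoot cs h b) (hbC : H378.WL.InC l C b) :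
    n + 1 ≤ {a | (IsRoot cs h a ∧ H378.WL.InC l C a) ∧ IsRoot cs h (b - a)}.ncard := by
  have hsel : ∀ s, s ∈ sel T C ↔ s < T.rts.length ∧ H378.WL.InC l C (toF l (T.gam s)) := by
    intro s
    unfold sel
    rw [List.mem_filter, List.mem_range, okB_iff hC]
  have hfin : ∀ b : Fin l → ℤ, {a | (IsRoot cs h a ∧ H378.WL.InC l C a) ∧ IsRoot cs h (b - a)}.Finite := fun b =>
    (RGD.finite_roots (cs := cs) (h := h)).subset fun _ hx => hx.1.1
  unfold nchk at hk
  simp only [Bool.and_eq_true, List.all_eq_true, beq_iff_eq] at hk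
  have key : ∀ r ∈ sel T C,
      n + 1 ≤ {a | (IsRoot cs h a ∧ H378.WL.InC l C a) ∧ IsRoot cs h (toF l (T.gam r) - a)}.ncard := by
    intro r hr
    obtain ⟨⟨h1, h2⟩, h3⟩ := hk r hr
    have h4 : n + 1 ≤ (nbL T C r).length := by
      by_contra hcon
      have h5 : (nbL T C r).length.ble n = true := Nat.ble_eq_true_of_le (by omega)
      rw [h5] at h1
      exact absurd h1 (by simp)
    refine h4.trans (length_le_ncard (l := l) h2 (fun x hx => hT ▸ Nat.le_of_ble_eq_true (h3 x hx)) (hfin _) ?_)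
    intro x hx
    unfold nbL at hx
    rcases List.mem_append.1 hx with hx | hx
    · obtain ⟨s, hs, rfl⟩ := List.mem_map.1 hx
      obtain ⟨hs1, hs2⟩ := List.mem_filter.1 hs
      have hs' := (hsel s).1 hs1
      have h5 := isRoot_of_isPos cs h hT hA hR hs2
      have h6 := root_gam cs h hT hA hR s hs'.1
      rw [toF_vsm, neg_one_smul]
      refine ⟨⟨h6.neg, hs'.2.neg⟩, ?_⟩
      rw [sub_neg_eq_add, ← toF_vadd]
      exact h5
    · obtain ⟨s, hs, rfl⟩ := List.mem_map.1 hx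
      obtain ⟨hs1, hs2⟩ := List.mem_filter.1 hs
      have hs' := (hsel s).1 hs1
      have h6 := root_gam cs h hT hA hR s hs'.1
      refine ⟨⟨h6, hs'.2⟩, ?_⟩
      rcases Bool.or_eq_true_iff.1 hs2 with h7 | h7
      · have h5 := isRoot_of_isPos cs h hT hA hR h7
        rwa [toF_vadd, toF_vsm, neg_one_smul, ← sub_eq_add_neg] at h5
      · have h5 := isRoot_of_isPos cs h hT hA hR h7
        rw [toF_vadd, toF_vsm, neg_one_smul, ← sub_eq_add_neg] at h5
        have h8 := h5.neg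
        rwa [neg_sub] at h8
  obtain ⟨a, ha, h1⟩ := exists_gam' cs h hT hA hR hb
  obtain ⟨r, hr, e, -⟩ := exists_lt_of_mem ha
  rw [← e] at h1
  rcases h1 with rfl | rfl
  · exact key r ((hsel r).2 ⟨hr, hbC⟩)
  · have hrC : H378.WL.InC l C (toF l (T.gam r)) := by
      have := hbC.neg
      rwa [neg_neg] at this
    refine (key r ((hsel r).2 ⟨hr, hrC⟩)).trans ?_
    rw [← Set.ncard_image_of_injective _ (neg_injective (G := Fin l → ℤ))]
    refine Set.ncard_le_ncard ?_ (hfin _)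
    rintro _ ⟨x, ⟨⟨hx1, hx2⟩, hx3⟩, rfl⟩
    refine ⟨⟨hx1.neg, hx2.neg⟩, ?_⟩
    have e2 : -toF l (T.gam r) - -x = -(toF l (T.gam r) - x) := by abel
    rw [e2]
    exact hx3.neg

end Gen

/-! ### the group `E₆` -/

open Cfsg.Agent.H378.E6Dat (dat)

/-- the vectors of the three functionals -/
def cv (s : ℕ) : Vc :=
  match s with
  | 0 => [0, 0, 0, 0, 0, 1]
  | 1 => [0, 1, 0, 0, 0, 0]
  | _ => [1, 0, 0, 0, 0, 1]

/-- the last roots of the three sets -/
def cm6 (s : ℕ) : ℕ :=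
  match s with
  | 0 => 28
  | 1 => 22
  | _ => 23

theorem e6_conn : ∀ s < 3, conn dat (sel dat [(cv s, 0)]) (cm6 s) = true := by decide +kernel

theorem e6_nchk : ∀ s < 3, nchk dat [(cv s, 0)] 7 = true := by decide +kernel

theorem cv_length : ∀ s < 3, (cv s).length ≤ 6 := by decide +kernel

variable {M : CoxeterMatrix (Fin 6)} (hp : IsType chevE6 6 M) {W : Type*} [Group W] [Finite W] (cs : CoxeterSystem M W)

theorem sl_e6 : Cfsg.Agent.KFacts.RgdSL.SL cs hp.isCartan := by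
  have key : ∀ i j : Fin 6, cartanOf chevE6 6 i j ≠ -2 ∧ cartanOf chevE6 6 i j ≠ -3 := by decide +kernel
  have h46 : ∀ i j, M i j ≠ 4 ∧ M i j ≠ 6 := by
    intro i j
    by_cases hij : i = j
    · subst hij
      rw [M.diagonal]
      exact ⟨by norm_num, by norm_num⟩
    · have k1 := key i j
      have k2 := key j i
      rcases hp.isCartan.rel i j hij with h1 | h1 | h1 | h1
      · rw [h1.1]; exact ⟨by norm_num, by norm_num⟩
      · rw [h1.1]; exact ⟨by norm_num, by norm_num⟩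
      · exfalso
        rcases h1.2 with h2 | h2
        · exact k2.1 h2.2
        · exact k1.1 h2.1
      · exfalso
        rcases h1.2 with h2 | h2
        · exact k2.2 h2.2
        · exact k1.2 h2.1
  exact fun _ _ hx hy => Nodes.SimplyLaced.cpr_symm cs _ (fun i j => (h46 i j).1) (fun i j => (h46 i j).2) hx hy

theorem lr_e6 {β : Fin 6 → ℤ} (hβ : IsRoot cs hp.isCartan β) : H398.RG.Lr cs hp.isCartan β :=
  ⟨hβ, fun _ hb hb1 hb2 => abs_le.2 ((sl_e6 hp cs).abs_le hb hβ hb1 hb2)⟩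

theorem cpr_eq_one {β a : Fin 6 → ℤ} (hβ : IsRoot cs hp.isCartan β) (ha : IsRoot cs hp.isCartan a)
    (hb : IsRoot cs hp.isCartan (β - a)) : cpr cs hp.isCartan a β = 1 := by
  have hsl := sl_e6 hp cs
  have ne1 : ∀ x y : Fin 6 → ℤ, IsRoot cs hp.isCartan x → IsRoot cs hp.isCartan y → x + y = β →
      cpr cs hp.isCartan x β ≤ 1 := by
    intro x y hx hy hxy
    have hx1 : x ≠ β := by
      rintro rfl
      exact hy.ne_zero (by simpa using hxy)
    have hx2 : x ≠ -β := by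
      intro he
      have hy2 : y = (2 : ℤ) • β := by
        have : y = β - x := by rw [← hxy]; abel
        rw [this, he, two_smul]; abel
      rw [hy2] at hy
      have := isUnit_of_smul cs hp.isCartan hy 2 rfl
      rw [Int.isUnit_iff] at this
      omega
    exact (hsl.abs_le hx hβ hx1 hx2).2
  have e1 : cpr cs hp.isCartan a β + cpr cs hp.isCartan (β - a) β = 2 := by
    rw [← cpr_add cs _ _ _ hβ, add_sub_cancel, cpr_self cs _ hβ]
  have e2 := ne1 _ _ ha hb (add_sub_cancel _ _)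
  have e3 := ne1 _ _ hb ha (sub_add_cancel _ _)
  omega

theorem inC_zero {c : Vc} {x : Fin 6 → ℤ} : H378.WL.InC 6 [(c, 0)] x ↔ dotF 6 c x = 0 := by
  unfold H378.WL.InC
  simp only [List.mem_singleton, forall_eq, Nat.cast_zero, zero_dvd_iff]

/-- the sets are irreducible -/
theorem psi_std {s : ℕ} (hs : s < 3) :
    PsiSet hp cs id {x | IsRoot cs hp.isCartan x ∧ H378.WL.InC 6 [(cv s, 0)] x} :=
  psiSet hp cs rfl H378.WL.E6.row H378.E6Dat.chkR H378.WL.E6.chkN H378.WL.E6.full H378.WL.E6.top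
    (fun c hc => by rw [List.mem_singleton.1 hc]; exact cv_length s hs) (e6_conn s hs) fun v hv hC => ⟨hv, hC⟩

theorem psi_conj {s : ℕ} (hs : s < 3) (v : W) :
    ∃ θ, PsiSet hp cs θ {x | IsRoot cs hp.isCartan x ∧ dotF 6 (cv s) (rep cs hp.isCartan v x) = 0} := by
  have h := (psi_std hp cs hs).conj v⁻¹
  have e : rep cs hp.isCartan v⁻¹ '' {x | IsRoot cs hp.isCartan x ∧ H378.WL.InC 6 [(cv s, 0)] x} =
      {x | IsRoot cs hp.isCartan x ∧ dotF 6 (cv s) (rep cs hp.isCartan v x) = 0} := by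
    ext x
    constructor
    · rintro ⟨y, ⟨hy1, hy2⟩, rfl⟩
      refine ⟨hy1.act _, ?_⟩
      rw [rep_apply_inv]
      exact inC_zero.1 hy2
    · rintro ⟨hx1, hx2⟩
      refine ⟨rep cs hp.isCartan v x, ⟨hx1.act v, inC_zero.2 hx2⟩, ?_⟩
      rw [rep_inv_apply]
  rw [e] at h
  exact ⟨_, h⟩

/-- **R2 (e), roots.** -/
theorem exists_top_e6 {s : ℕ} (hs : s < 3) (v : W) {S : Set (Fin 6 → ℤ)}
    (hS : S = {x | IsRoot cs hp.isCartan x ∧ dotF 6 (cv s) (rep cs hp.isCartan v x) = 0})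
    {θ : (Fin 6 → ℤ) ≃+ (Fin 6 → ℤ)} (hθr : ∀ a, IsRoot cs hp.isCartan (θ a) ↔ IsRoot cs hp.isCartan a)
    (hθS : ∀ a, θ a ∈ S ↔ a ∈ S) (hpos : ∀ a ∈ S, 0 ≤ a → 0 ≤ θ a) :
    ∃ β, β ∈ S ∧ 0 ≤ β ∧ θ β = β ∧ (∀ a ∈ S, 0 ≤ a → ¬ IsRoot cs hp.isCartan (β + a)) ∧
      (∃ w : W, β = rep cs hp.isCartan w (vec chevE6 6 (chevE6.nroots - 1))) ∧ H398.RG.Lr cs hp.isCartan β ∧
      8 ≤ {a | a ∈ S ∧ cpr cs hp.isCartan a β = 1}.ncard ∧
      8 ≤ {a | a ∈ S ∧ IsRoot cs hp.isCartan (β - a)}.ncard := by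
  obtain ⟨θ', hψ⟩ := psi_conj hp cs hs v
  rw [← hS] at hψ
  obtain ⟨β, hβ, hβ0, hθβ, htop⟩ := H899.RG.exists_top_fix hψ.root hψ.neg hψ.closed (isComp_of_psiSet hψ)
    (fun a ha => (hθr a).2 ha) hθS hpos fun a ha => (hθS a).2 ha
  have hβr := hψ.root β hβ
  have hfin : S.Finite := hψ.finite
  have hcard : 8 ≤ {a | a ∈ S ∧ IsRoot cs hp.isCartan (β - a)}.ncard := by
    have hβS := hβ
    rw [hS] at hβS
    have h1 := card_nb cs hp.isCartan (T := dat) rfl H378.WL.E6.row H378.E6Dat.chkR (C := [(cv s, 0)])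
      (fun c hc => by rw [List.mem_singleton.1 hc]; exact cv_length s hs) (e6_nchk s hs) (hβr.act v)
      (inC_zero.2 hβS.2)
    have hinj : Function.Injective (rep cs hp.isCartan v⁻¹) := by
      intro x y hxy
      have := congrArg (rep cs hp.isCartan v) hxy
      rwa [rep_apply_inv, rep_apply_inv] at this
    refine h1.trans ?_
    rw [← Set.ncard_image_of_injective _ hinj]
    refine Set.ncard_le_ncard ?_ (hfin.subset fun _ hx => hx.1)
    rintro _ ⟨x, ⟨⟨hx1, hx2⟩, hx3⟩, rfl⟩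
    constructor
    · rw [hS]
      refine ⟨hx1.act _, ?_⟩
      rw [rep_apply_inv]
      exact inC_zero.1 hx2
    · have e : β - rep cs hp.isCartan v⁻¹ x = rep cs hp.isCartan v⁻¹ (rep cs hp.isCartan v β - x) := by
        rw [map_sub, rep_inv_apply]
      rw [e]
      exact hx3.act _
  refine ⟨β, hβ, hβ0, hθβ, htop, hψ.long β hβ, lr_e6 hp cs hβr, hcard.trans ?_, hcard⟩
  refine Set.ncard_le_ncard (fun x hx => ⟨hx.1, cpr_eq_one hp cs hβr (hψ.root x hx.1) hx.2⟩)
    (hfin.subset fun _ hx => hx.1)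

/-- **R2 (e).** -/
theorem exists_topC {Y F : Type*} [Group Y] [Field F] {χ : (Fin 6 → ℤ) → Y → F} {t : Y} {s : ℕ} (hs : s < 3) (v : W)
    (hS : Sx cs hp.isCartan χ t = {x | IsRoot cs hp.isCartan x ∧ dotF 6 (cv s) (rep cs hp.isCartan v x) = 0})
    {θ : (Fin 6 → ℤ) ≃+ (Fin 6 → ℤ)} (hθr : ∀ a, IsRoot cs hp.isCartan (θ a) ↔ IsRoot cs hp.isCartan a)
    (hθS : ∀ a, θ a ∈ Sx cs hp.isCartan χ t ↔ a ∈ Sx cs hp.isCartan χ t)
    (hpos : ∀ a ∈ Sx cs hp.isCartan χ t, 0 ≤ a → 0 ≤ θ a) :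
    ∃ β, H169.RG.Top cs hp.isCartan χ θ t β ∧
      (∃ w : W, β = rep cs hp.isCartan w (vec chevE6 6 (chevE6.nroots - 1))) ∧ H398.RG.Lr cs hp.isCartan β ∧
      8 ≤ {a | a ∈ Sx cs hp.isCartan χ t ∧ cpr cs hp.isCartan a β = 1}.ncard ∧
      8 ≤ {a | a ∈ Sx cs hp.isCartan χ t ∧ IsRoot cs hp.isCartan (β - a)}.ncard := by
  obtain ⟨β, h1, h2, h3, h4, h5, h6, h7, h8⟩ := exists_top_e6 hp cs hs v hS hθr hθS hpos
  exact ⟨β, ⟨h1, h2, h3, h4⟩, h5, h6, h7, h8⟩

end Cfsg.Agent.H115.R2
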